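import Cfsg.Agent.H162.CC.Tools3
import Cfsg.Agent.Omega.Quasithin.Row.MTwelve

/-!
# S3828, rows `M11` and `M12` (helper759)

For every element `x` of order a power of `p` (not an involution) of `G12` some commutator `[x, x^g]` is not a
`p`-element: by the sharp 5-fold transitivity `x` is conjugate to one of 24 explicit elements.
-/

set_option autoImplicit false

namespace Cfsg.Agent.H759.CC

open Subgroup Cfsg Cfsg.Agent.H162.CCR Cfsg.Agent.CoThreeStd.M12 Cfsg.Agent.Omega.Quasithin.M12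

section Abs

variable {G : Type*} [Group G]

/-- the commutator `[x, x^g]` -/
def cm (x g : G) : G := x⁻¹ * (g⁻¹ * x * g)⁻¹ * x * (g⁻¹ * x * g)

/-- `x` and `[x, x^g] ≠ 1` have coprime orders. -/
structure Wit (x g : G) (n m : ℕ) : Prop where
  pn : x ^ n = 1
  pm : cm x g ^ m = 1
  ne : cm x g ≠ 1
  cop : n.Coprime m

theorem false_of_wit {p : ℕ} [hp : Fact p.Prime] {C : Set G} (h : CC p C) {x g : G} {n m : ℕ} (hx : x ∈ C)
    (w : Wit x g n m) : False := by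
  have h1 : cm x g ∈ C := h.comm x hx _ (h.conj' g hx)
  obtain ⟨k, hk⟩ := h.pel x hx
  obtain ⟨j, hj⟩ := h.pel _ h1
  have hj0 : j ≠ 0 := by
    rintro rfl
    rw [pow_zero] at hj
    exact w.ne (orderOf_eq_one_iff.1 hj)
  have hk0 : k ≠ 0 := by
    rintro rfl
    rw [pow_zero] at hk
    have h2 := orderOf_eq_one_iff.1 hk
    apply w.ne
    rw [cm, h2]
    group
  have h3 : p ∣ n := (dvd_pow_self p hk0).trans (hk ▸ orderOf_dvd_of_pow_eq_one w.pn)
  have h4 : p ∣ m := (dvd_pow_self p hj0).trans (hj ▸ orderOf_dvd_of_pow_eq_one w.pm)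
  have h5 : p ∣ 1 := by
    rw [← w.cop]
    exact Nat.dvd_gcd h3 h4
  exact hp.out.one_lt.ne' (Nat.dvd_one.1 h5)

theorem Wit.of_map {H : Type*} [Group H] {f : G →* H} (hf : Function.Injective f) {x g : G} {n m : ℕ}
    (w : Wit (f x) (f g) n m) : Wit x g n m := by
  have e : cm (f x) (f g) = f (cm x g) := by simp only [cm, map_mul, map_inv]
  refine ⟨hf ?_, hf ?_, ?_, w.cop⟩
  · rw [map_pow, map_one, w.pn]
  · rw [map_pow, map_one, ← e, w.pm]
  · intro h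
    apply w.ne
    rw [e, h, map_one]

end Abs

section Orbit

/-- the period of a moved point of an element of order a power of `p` is divisible by `p` -/
theorem per {α : Type*} {p k : ℕ} (hp : p.Prime) {x : Equiv.Perm α} (hx : x ^ p ^ k = 1) {a : α} (ha : x a ≠ a)
    {i : ℕ} (hi : (x ^ i) a = a) : p ∣ i := by
  by_contra hpi
  have h1 : Function.IsPeriodicPt x (p ^ k) a := by
    show x^[p ^ k] a = a
    rw [Equiv.Perm.iterate_eq_pow, hx]
    rfl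
  have h2 : Function.IsPeriodicPt x i a := by
    show x^[i] a = a
    rw [Equiv.Perm.iterate_eq_pow, hi]
  have h3 := h1.gcd h2
  have h4 : (p ^ k).gcd i = 1 := Nat.Coprime.pow_left k ((Nat.Prime.coprime_iff_not_dvd hp).2 hpi)
  rw [h4] at h3
  exact ha h3

theorem per2 {α : Type*} {p k : ℕ} (hp : p.Prime) {x : Equiv.Perm α} (hx : x ^ p ^ k = 1) {a : α} (ha : x a ≠ a)
    (hi : x (x a) = a) : p = 2 := by
  have h1 : (x ^ 2) a = a := by rw [pow_two]; exact hi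
  exact (Nat.prime_dvd_prime_iff_eq hp Nat.prime_two).1 (per hp hx ha h1)

theorem per3 {α : Type*} {p k : ℕ} (hp : p.Prime) {x : Equiv.Perm α} (hx : x ^ p ^ k = 1) {a : α} (ha : x a ≠ a)
    (hi : x (x (x a)) = a) : p = 3 := by
  have h1 : (x ^ 3) a = a := by rw [pow_succ, pow_two]; exact hi
  exact (Nat.prime_dvd_prime_iff_eq hp Nat.prime_three).1 (per hp hx ha h1)

theorem per4 {α : Type*} {p k : ℕ} (hp : p.Prime) {x : Equiv.Perm α} (hx : x ^ p ^ k = 1) {a : α} (ha : x a ≠ a)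
    (hi : x (x (x (x a))) = a) : p = 2 := by
  have h1 : (x ^ 4) a = a := by rw [pow_succ, pow_succ, pow_two]; exact hi
  have h2 : p ∣ 2 ^ 2 := per hp hx ha h1
  exact (Nat.prime_dvd_prime_iff_eq hp Nat.prime_two).1 (hp.dvd_of_dvd_pow h2)

end Orbit

/-! ### the tables -/

/-- powers of a table -/
def powT (t : ℕ) : ℕ → ℕ
  | 0 => oneT
  | n + 1 => mulT (powT t n) t

theorem rep_pow {x : P12} {t : ℕ} (h : Rep x t) (n : ℕ) : Rep (x ^ n) (powT t n) := by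
  induction n with
  | zero => exact Rep.one
  | succ n ih =>
    rw [pow_succ]
    exact ih.mul h

/-- the table of the commutator -/
def cmT (w g : List (Fin 6)) : ℕ :=
  mulT (mulT (mulT (wt w.reverse) (mulT (wt g.reverse) (mulT (wt w.reverse) (wt g)))) (wt w))
    (mulT (wt g.reverse) (mulT (wt w) (wt g)))

theorem rep_inv (w : List (Fin 6)) : Rep ((el w)⁻¹ : G12) (wt w.reverse) := by
  rw [← el_reverse]
  exact el_rep _

theorem rep_cm (w g : List (Fin 6)) : Rep (cm (el w) (el g) : G12) (cmT w g) := by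
  have e : cm (el w) (el g) = (el w)⁻¹ * ((el g)⁻¹ * ((el w)⁻¹ * el g)) * el w * ((el g)⁻¹ * (el w * el g)) := by
    unfold cm
    group
  rw [e]
  have hm : ∀ {x y : G12} {s t : ℕ}, Rep x s → Rep y t → Rep (x * y : G12) (mulT s t) := fun hx hy => hx.mul hy
  exact hm (hm (hm (rep_inv w) (hm (rep_inv g) (hm (rep_inv w) (el_rep g)))) (el_rep w))
    (hm (rep_inv g) (hm (el_rep w) (el_rep g)))

abbrev Dat : Type := List (Fin 6) × List (Fin 6) × ℕ × ℕ

/-- the check of a witness -/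
def chk (t : Dat) : Bool :=
  Nat.beq (powT (wt t.1) t.2.2.1) oneT && Nat.beq (powT (cmT t.1 t.2.1) t.2.2.2) oneT &&
    !Nat.beq (cmT t.1 t.2.1) oneT && Nat.beq (Nat.gcd t.2.2.1 t.2.2.2) 1

theorem wit_of_chk {t : Dat} (h : chk t = true) : Wit (el t.1) (el t.2.1) t.2.2.1 t.2.2.2 := by
  unfold chk at h
  simp only [Bool.and_eq_true, Nat.beq_eq] at h
  obtain ⟨⟨⟨h1, h2⟩, h3⟩, h4⟩ := h
  refine ⟨Subtype.ext ?_, Subtype.ext ?_, ?_, h4⟩
  · have h5 := (rep_pow (el_rep t.1) t.2.2.1)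
    rw [h1] at h5
    exact Rep.eq_one_iff h5 |>.2 rfl
  · have h5 := (rep_pow (rep_cm t.1 t.2.1) t.2.2.2)
    rw [h2] at h5
    exact Rep.eq_one_iff h5 |>.2 rfl
  · intro h5
    have h6 := rep_cm t.1 t.2.1
    rw [h5] at h6
    have h7 : cmT t.1 t.2.1 = oneT := (Rep.eq_one_iff h6).1 rfl
    rw [h7] at h3
    revert h3
    decide

/-- witnesses -/
def LA : List Dat := [
  ([2, 3, 2, 5, 0, 4, 5], [0], 5, 3),
  ([4, 5, 1, 2, 1, 5, 3, 4, 5], [0], 11, 4),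
  ([0, 5, 1, 5, 1, 4, 5, 1, 4], [1], 6, 5),
  ([0, 5, 1, 5, 1, 4, 5], [4], 8, 5),
  ([1, 5, 1, 5, 1, 4, 5, 1, 2, 3], [0], 11, 6),
  ([3, 5, 1, 4, 5, 0, 1, 3], [0], 8, 5),
  ([4, 3, 5, 1, 5, 3, 2], [0], 10, 3),
  ([0, 1, 5, 3, 2, 1, 4, 5, 2], [0, 3], 6, 5)]

/-- witnesses -/
def LB : List Dat := [
  ([0, 5, 1, 3, 4, 5, 1, 2, 4, 5], [5], 4, 5),
  ([5, 0, 2, 5, 1, 5, 0, 3, 5], [2], 8, 5),
  ([0, 2, 1, 5, 1, 3, 5, 1, 2], [2], 8, 5),
  ([5, 3, 2, 5, 0, 5, 0, 2, 5], [0, 2, 3], 4, 5),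
  ([0, 5, 2, 1, 4, 5, 1, 4, 3, 5], [5], 4, 5),
  ([0, 3, 4, 5, 2, 4, 5, 4, 3], [2], 8, 3),
  ([5, 0, 3, 5, 4, 5, 0, 2, 5], [2], 8, 3),
  ([5, 2, 3, 5, 0, 5, 0, 3, 5], [0, 2, 3], 4, 5)]

/-- witnesses -/
def LC : List Dat := [
  ([1, 2, 3, 5, 0, 2, 1, 5, 0], [0], 6, 5),
  ([4, 5, 2, 3, 2, 1, 5, 1, 3], [2], 6, 5),
  ([3, 5, 3, 2, 1, 5, 1, 4, 5, 0], [2], 6, 5),
  ([4, 5, 2, 3, 2, 1, 5, 3, 4], [0], 3, 2),
  ([0, 5, 3, 2, 4, 5, 0, 5, 4], [2], 6, 5),
  ([2, 1, 5, 0, 5, 0, 4, 5, 1, 5], [2], 3, 2),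
  ([0, 2, 5, 3, 4, 5, 0, 2], [1], 3, 2),
  ([0, 5, 0, 1, 3, 5, 4, 5, 1, 2], [0], 3, 5)]

/-- witnesses -/
def LD : List Dat := [
  ([2, 1, 5, 2, 3, 2, 1, 5, 4, 5], [0], 3, 2),
  ([0, 2, 3, 4, 5, 1, 5, 2, 3, 5, 2], [2], 6, 5),
  ([1, 3, 5, 1, 5, 0, 5, 1, 2, 5], [2], 6, 5),
  ([2, 5, 4, 5, 0, 5, 4, 3, 5, 1], [0], 3, 2),
  ([2, 5, 0, 5, 4, 3, 5, 0, 5], [3], 6, 5),
  ([1, 3, 4, 5, 1, 5, 2, 3, 5, 2, 3], [0], 3, 2),
  ([4, 3, 5, 1, 5, 0, 5, 1, 2, 5], [0], 3, 2),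
  ([2, 1, 5, 4, 5, 3, 2, 5, 3, 2, 1], [2], 6, 5)]

/-- witnesses -/
def LA1 : List Dat := [
  ([5, 0, 5, 2, 4, 3, 5, 0], [0, 1, 2, 3], 4, 5),
  ([1, 3, 4, 5, 4, 3, 2, 1, 5], [1, 4], 8, 5),
  ([0, 2, 1, 3, 5, 0, 5, 1, 2, 1], [1, 4], 6, 5),
  ([5, 0, 5, 0, 4, 3, 5, 4], [1, 4], 11, 4),
  ([0, 2, 1, 3, 5, 0, 5, 1, 2, 4], [1, 5], 5, 8),
  ([1, 2, 3, 2, 5, 3, 2], [1, 4], 8, 5),
  ([2, 5, 2, 1, 4, 3, 5, 3, 2], [1, 4], 11, 4),
  ([1, 3, 4, 5, 3, 2, 1, 5, 0], [1, 4], 5, 3)]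

/-- witnesses -/
def LB1 : List Dat := [
  ([2, 5, 3, 2, 5, 1, 5, 4, 3, 2], [0, 1, 5, 2], 3, 2),
  ([2, 5, 0, 1, 2, 5, 1, 5, 3, 4], [1, 5], 3, 5),
  ([2, 3, 5, 2, 3, 5, 4, 5, 1, 2], [2, 5, 0, 5], 6, 5),
  ([1, 3, 5, 0, 4, 3, 5, 4, 5, 2], [1, 5], 3, 5),
  ([5, 3, 4, 5, 0, 5, 4, 5, 2], [2, 5, 0, 5], 6, 11),
  ([0, 5, 2, 1, 5, 0, 5, 1, 5, 3], [0, 3, 2, 5], 6, 5),
  ([1, 5, 4, 5, 1, 2, 3, 2, 5, 1, 2], [0, 1, 5, 2], 3, 11),
  ([5, 1, 5, 2, 4, 3, 2, 5, 1, 4, 3], [0, 3, 2, 5], 6, 5)]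

/-- the pattern `0 ↦ a, 6 ↦ b, 1 ↦ c, 2 ↦ d` -/
def PatOk (L : List Dat) (a b c d : Fin 12) : Prop :=
  ∀ f : Fin 12, f ≠ a → f ≠ b → f ≠ c → f ≠ d → ∃ t ∈ L, chk t = true ∧ dg (wt t.1) 0 = a ∧ dg (wt t.1) 6 = b ∧
    dg (wt t.1) 1 = c ∧ dg (wt t.1) 2 = d ∧ dg (wt t.1) 3 = f

instance instDecPatOk (L : List Dat) (a b c d : Fin 12) : Decidable (PatOk L a b c d) := by
  unfold PatOk
  infer_instance

theorem okA : PatOk LA 6 1 2 3 := by decide +kernel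
theorem okB : PatOk LB 6 1 2 0 := by decide +kernel
theorem okC : PatOk LC 6 1 0 3 := by decide +kernel
theorem okD : PatOk LD 6 1 0 2 := by decide +kernel
theorem okA1 : PatOk LA1 0 1 2 3 := by decide +kernel
theorem okB1 : PatOk LB1 0 1 2 6 := by decide +kernel
theorem fixA1 : ∀ t ∈ LA1, dg (wt t.2.1) 0 = 0 := by decide +kernel
theorem fixB1 : ∀ t ∈ LB1, dg (wt t.2.1) 0 = 0 := by decide +kernel

theorem ev {w : List (Fin 6)} {i j : Fin 12} (h : dg (wt w) i = j) : (el w : P12) i = j :=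
  Fin.ext (by rw [← el_apply]; exact h)

theorem eq_of_base {x y : G12} (h : ∀ k, (x : P12) (base k) = (y : P12) (base k)) : x = y := by
  have h1 : ((y⁻¹ * x : G12) : P12) = 1 := by
    apply sharp (x := ((y⁻¹ * x : G12) : P12)) (by rw [range_eq]; exact (y⁻¹ * x : G12).2)
    intro k
    show (y : P12).symm ((x : P12) (base k)) = base k
    rw [h k, Equiv.symm_apply_apply]
  have h2 : y⁻¹ * x = 1 := Subtype.ext h1
  exact (inv_mul_eq_one.1 h2).symm

theorem trans_five (a b c d e : Fin 12) (hab : a ≠ b) (hac : a ≠ c) (had : a ≠ d) (hae : a ≠ e) (hbc : b ≠ c)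
    (hbd : b ≠ d) (hbe : b ≠ e) (hcd : c ≠ d) (hce : c ≠ e) (hde : d ≠ e) :
    ∃ x : G12, (x : P12) 0 = a ∧ (x : P12) 6 = b ∧ (x : P12) 1 = c ∧ (x : P12) 2 = d ∧ (x : P12) 3 = e := by
  obtain ⟨x, h0, h6, h1, h2⟩ := trans_four a b c d hab hac had hbc hbd hcd
  have key : ∀ {i j : Fin 12}, (x : P12) i = j → j ≠ e → (x : P12).symm e ≠ i := by
    intro i j hij hje h
    apply hje
    rw [← hij, ← h, Equiv.apply_symm_apply]
  obtain ⟨w, -, w3, w0, w6, w1, w2⟩ := trans4 ((x : P12).symm e) (key h0 hae) (key h6 hbe) (key h1 hce) (key h2 hde)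
  refine ⟨x * el w, ?_, ?_, ?_, ?_, ?_⟩
  · show (x : P12) ((el w : P12) 0) = a
    rw [ev (j := 0) w0, h0]
  · show (x : P12) ((el w : P12) 6) = b
    rw [ev (j := 6) w6, h6]
  · show (x : P12) ((el w : P12) 1) = c
    rw [ev (j := 1) w1, h1]
  · show (x : P12) ((el w : P12) 2) = d
    rw [ev (j := 2) w2, h2]
  · show (x : P12) ((el w : P12) 3) = e
    rw [ev w3, Equiv.apply_symm_apply]

theorem pat {L : List Dat} {a b c d : Fin 12} (hL : PatOk L a b c d) {z : G12} (h0 : (z : P12) 0 = a)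
    (h6 : (z : P12) 6 = b) (h1 : (z : P12) 1 = c) (h2 : (z : P12) 2 = d) : ∃ t ∈ L, chk t = true ∧ z = el t.1 := by
  have hne : ∀ {i j : Fin 12}, (z : P12) i = j → i ≠ 3 → (z : P12) 3 ≠ j := by
    intro i j hij hi h
    apply hi
    exact (z : P12).injective (hij.trans h.symm)
  obtain ⟨t, ht, hc, e0, e6, e1, e2, e3⟩ := hL ((z : P12) 3) (hne h0 (by decide)) (hne h6 (by decide))
    (hne h1 (by decide)) (hne h2 (by decide))
  refine ⟨t, ht, hc, eq_of_base ?_⟩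
  intro k
  fin_cases k
  · show (z : P12) 0 = (el t.1 : P12) 0
    rw [h0, ev (i := 0) e0]
  · show (z : P12) 6 = (el t.1 : P12) 6
    rw [h6, ev (i := 6) e6]
  · show (z : P12) 1 = (el t.1 : P12) 1
    rw [h1, ev (i := 1) e1]
  · show (z : P12) 2 = (el t.1 : P12) 2
    rw [h2, ev (i := 2) e2]
  · show (z : P12) 3 = (el t.1 : P12) 3
    rw [ev (i := 3) e3]

/-- a conjugate of `x` has a witness -/
def HasWit (x : G12) : Prop := ∃ u g : G12, ∃ n m, Wit (u⁻¹ * x * u) g n m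

/-- the same inside the stabiliser of `0` -/
def HasWit0 (x : G12) : Prop :=
  ∃ u g : G12, (u : P12) 0 = 0 ∧ (g : P12) 0 = 0 ∧ ∃ n m, Wit (u⁻¹ * x * u) g n m

theorem conj_apply {x u : G12} {i j a b : Fin 12} (hi : (u : P12) i = a) (hab : (x : P12) a = b)
    (hj : (u : P12) j = b) : ((u⁻¹ * x * u : G12) : P12) i = j := by
  show (u : P12).symm ((x : P12) ((u : P12) i)) = j
  rw [hi, hab, ← hj, Equiv.symm_apply_apply]

/-- five consecutive points -/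
theorem hasWit_five {x : G12} {a : Fin 12} (h1 : (x : P12) a ≠ a) (h2 : (x : P12) ((x : P12) a) ≠ a)
    (h3 : (x : P12) ((x : P12) ((x : P12) a)) ≠ a) (h4 : (x : P12) ((x : P12) ((x : P12) ((x : P12) a))) ≠ a) :
    HasWit x := by
  have hinj := (x : P12).injective
  obtain ⟨u, u0, u6, u1, u2, u3⟩ := trans_five a ((x : P12) a) ((x : P12) ((x : P12) a))
    ((x : P12) ((x : P12) ((x : P12) a))) ((x : P12) ((x : P12) ((x : P12) ((x : P12) a)))) h1.symm h2.symm h3.symm h4.symm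
    (fun h => h1.symm (hinj h)) (fun h => h2.symm (hinj h)) (fun h => h3.symm (hinj h))
    (fun h => h1.symm (hinj (hinj h))) (fun h => h2.symm (hinj (hinj h))) (fun h => h1.symm (hinj (hinj (hinj h))))
  obtain ⟨t, -, hc, hz⟩ := pat okA (conj_apply u0 rfl u6) (conj_apply u6 rfl u1) (conj_apply u1 rfl u2)
    (conj_apply u2 rfl u3)
  exact ⟨u, el t.2.1, _, _, hz ▸ wit_of_chk hc⟩

theorem exists_ne (s : Finset (Fin 12)) (hs : s.card < 12) : ∃ e : Fin 12, e ∉ s := by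
  by_contra h
  push Not at h
  have h1 : s = Finset.univ := Finset.eq_univ_iff_forall.2 h
  rw [h1, Finset.card_univ, Fintype.card_fin] at hs
  omega

/-- a 4-cycle -/
theorem hasWit_four {x : G12} {a : Fin 12} (h1 : (x : P12) a ≠ a) (h2 : (x : P12) ((x : P12) a) ≠ a)
    (h3 : (x : P12) ((x : P12) ((x : P12) a)) ≠ a) (h4 : (x : P12) ((x : P12) ((x : P12) ((x : P12) a))) = a) :
    HasWit x := by
  have hinj := (x : P12).injective
  obtain ⟨e, he⟩ := exists_ne {a, (x : P12) a, (x : P12) ((x : P12) a), (x : P12) ((x : P12) ((x : P12) a))}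
    (lt_of_le_of_lt Finset.card_le_four (by norm_num))
  simp only [Finset.mem_insert, Finset.mem_singleton, not_or] at he
  obtain ⟨e1, e2, e3, e4⟩ := he
  obtain ⟨u, u0, u6, u1, u2, u3⟩ := trans_five a ((x : P12) a) ((x : P12) ((x : P12) a))
    ((x : P12) ((x : P12) ((x : P12) a))) e h1.symm h2.symm h3.symm (Ne.symm e1)
    (fun h => h1.symm (hinj h)) (fun h => h2.symm (hinj h)) (Ne.symm e2)
    (fun h => h1.symm (hinj (hinj h))) (Ne.symm e3) (Ne.symm e4)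
  obtain ⟨t, -, hc, hz⟩ := pat okB (conj_apply u0 rfl u6) (conj_apply u6 rfl u1) (conj_apply u1 rfl u2)
    (conj_apply u2 h4 u0)
  exact ⟨u, el t.2.1, _, _, hz ▸ wit_of_chk hc⟩

/-- a 3-cycle -/
theorem hasWit_three {x : G12} {a : Fin 12} (h1 : (x : P12) a ≠ a) (h2 : (x : P12) ((x : P12) a) ≠ a)
    (h3 : (x : P12) ((x : P12) ((x : P12) a)) = a) : HasWit x := by
  have hinj := (x : P12).injective
  obtain ⟨d, hd⟩ := exists_ne {a, (x : P12) a, (x : P12) ((x : P12) a)}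
    (lt_of_le_of_lt Finset.card_le_three (by norm_num))
  simp only [Finset.mem_insert, Finset.mem_singleton, not_or] at hd
  obtain ⟨d1, d2, d3⟩ := hd
  by_cases hxd : (x : P12) d = d
  · obtain ⟨e, he⟩ := exists_ne {a, (x : P12) a, (x : P12) ((x : P12) a), d}
      (lt_of_le_of_lt Finset.card_le_four (by norm_num))
    simp only [Finset.mem_insert, Finset.mem_singleton, not_or] at he
    obtain ⟨e1, e2, e3, e4⟩ := he
    obtain ⟨u, u0, u6, u1, u2, u3⟩ := trans_five a ((x : P12) a) ((x : P12) ((x : P12) a))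
      d e h1.symm h2.symm (Ne.symm d1) (Ne.symm e1)
      (fun h => h1.symm (hinj h)) (Ne.symm d2) (Ne.symm e2) (Ne.symm d3) (Ne.symm e3) (Ne.symm e4)
    obtain ⟨t, -, hc, hz⟩ := pat okD (conj_apply u0 rfl u6) (conj_apply u6 rfl u1) (conj_apply u1 h3 u0)
      (conj_apply u2 hxd u2)
    exact ⟨u, el t.2.1, _, _, hz ▸ wit_of_chk hc⟩
  · obtain ⟨u, u0, u6, u1, u2, u3⟩ := trans_five a ((x : P12) a) ((x : P12) ((x : P12) a))
      d ((x : P12) d) h1.symm h2.symm (Ne.symm d1) (fun h => d3 (hinj (h.symm.trans h3.symm)))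
      (fun h => h1.symm (hinj h)) (Ne.symm d2) (fun h => d1 (hinj h.symm)) (Ne.symm d3)
      (fun h => d2 (hinj h.symm)) (Ne.symm hxd)
    obtain ⟨t, -, hc, hz⟩ := pat okC (conj_apply u0 rfl u6) (conj_apply u6 rfl u1) (conj_apply u1 h3 u0)
      (conj_apply u2 rfl u3)
    exact ⟨u, el t.2.1, _, _, hz ▸ wit_of_chk hc⟩

/-- **every non-trivial `p`-element of `G12`, not an involution, has a conjugate with a witness** -/
theorem hasWit {p k : ℕ} (hp : p.Prime) {x : G12} (hx : x ^ p ^ k = 1) (h1 : x ≠ 1) (h2 : p = 2 → x * x ≠ 1) :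
    HasWit x := by
  have hx' : (x : P12) ^ p ^ k = 1 := congrArg Subtype.val hx
  -- a point with `x x a ≠ a`
  obtain ⟨a, ha⟩ : ∃ a, (x : P12) ((x : P12) a) ≠ a := by
    by_contra hcon
    push Not at hcon
    have h3 : x * x = 1 := Subtype.ext (Equiv.ext hcon)
    apply h2 _ h3
    obtain ⟨b, hb⟩ : ∃ b, (x : P12) b ≠ b := by
      by_contra hcon2
      push Not at hcon2
      exact h1 (Subtype.ext (Equiv.ext hcon2))
    exact per2 hp hx' hb (hcon b)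
  have ha1 : (x : P12) a ≠ a := fun h => ha (by rw [h, h])
  by_cases h3 : (x : P12) ((x : P12) ((x : P12) a)) = a
  · exact hasWit_three ha1 ha h3
  by_cases h4 : (x : P12) ((x : P12) ((x : P12) ((x : P12) a))) = a
  · exact hasWit_four ha1 ha h3 h4
  exact hasWit_five ha1 ha h3 h4

theorem crow12 [Finite G12] (hO : pCore 2 G12 = ⊥) (p : ℕ) [hp : Fact p.Prime] : CRow p G12 := by
  intro C hC c hc
  by_contra hc1
  obtain ⟨k, hk⟩ := hC.pel c hc
  obtain ⟨u, g, n, m, w⟩ := hasWit hp.out (x := c) (k := k) (by rw [← hk]; exact pow_orderOf_eq_one c) hc1 (by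
    rintro rfl h
    exact hc1 (hC.sq_ne_one hO hc h))
  exact false_of_wit hC.toCC (hC.conj_mem' u hc) w

theorem crow_m12 {G : Type*} [Group G] [Finite G] [IsSimpleGroup G] (h : Spor.IsoM12 G) (p : ℕ) [Fact p.Prime] :
    CRow p G := by
  obtain ⟨e⟩ := h
  have e' := e.trans Cfsg.Agent.CoThreeStd.M12.equiv
  have : Finite G12 := Finite.of_equiv G e'.toEquiv
  have : IsSimpleGroup G12 := e'.symm.isSimpleGroup
  refine CRow.of_equiv e' (crow12 (pCore_eq_bot_of_simple ?_ 2) p)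
  intro hab
  have h1 : el [1] * el [2] = el [2] * el [1] := hab.is_comm.comm _ _
  rw [← el_append, ← el_append, el_eq_iff] at h1
  revert h1
  decide +kernel

/-! ### `M11` -/

/-- pattern: `0` fixed, three consecutive points and the image -/
theorem hasWit0_four {x : G12} (hx0 : (x : P12) 0 = 0) {a : Fin 12} (h1 : (x : P12) a ≠ a)
    (h2 : (x : P12) ((x : P12) a) ≠ a) (h3 : (x : P12) ((x : P12) ((x : P12) a)) ≠ a) : HasWit0 x := by
  have hinj := (x : P12).injective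
  have a0 : (0 : Fin 12) ≠ a := fun h => h1 (by rw [← h, hx0])
  have a1 : (0 : Fin 12) ≠ (x : P12) a := fun h => a0 (hinj (hx0.trans h))
  have a2 : (0 : Fin 12) ≠ (x : P12) ((x : P12) a) := fun h => a1 (hinj (hx0.trans h))
  have a3 : (0 : Fin 12) ≠ (x : P12) ((x : P12) ((x : P12) a)) := fun h => a2 (hinj (hx0.trans h))
  obtain ⟨u, u0, u6, u1, u2, u3⟩ := trans_five 0 a ((x : P12) a) ((x : P12) ((x : P12) a))
    ((x : P12) ((x : P12) ((x : P12) a))) a0 a1 a2 a3 h1.symm h2.symm h3.symm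
    (fun h => h1.symm (hinj h)) (fun h => h2.symm (hinj h)) (fun h => h1.symm (hinj (hinj h)))
  obtain ⟨t, ht, hc, hz⟩ := pat okA1 (conj_apply u0 hx0 u0) (conj_apply u6 rfl u1) (conj_apply u1 rfl u2)
    (conj_apply u2 rfl u3)
  exact ⟨u, el t.2.1, u0, ev (i := 0) (j := 0) (fixA1 t ht), _, _, hz ▸ wit_of_chk hc⟩

theorem hasWit0_three {x : G12} (hx0 : (x : P12) 0 = 0) {a : Fin 12} (h1 : (x : P12) a ≠ a)
    (h2 : (x : P12) ((x : P12) a) ≠ a) (h3 : (x : P12) ((x : P12) ((x : P12) a)) = a) : HasWit0 x := by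
  have hinj := (x : P12).injective
  have a0 : (0 : Fin 12) ≠ a := fun h => h1 (by rw [← h, hx0])
  have a1 : (0 : Fin 12) ≠ (x : P12) a := fun h => a0 (hinj (hx0.trans h))
  have a2 : (0 : Fin 12) ≠ (x : P12) ((x : P12) a) := fun h => a1 (hinj (hx0.trans h))
  obtain ⟨e, he⟩ := exists_ne {0, a, (x : P12) a, (x : P12) ((x : P12) a)}
    (lt_of_le_of_lt Finset.card_le_four (by norm_num))
  simp only [Finset.mem_insert, Finset.mem_singleton, not_or] at he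
  obtain ⟨e1, e2, e3, e4⟩ := he
  obtain ⟨u, u0, u6, u1, u2, u3⟩ := trans_five 0 a ((x : P12) a) ((x : P12) ((x : P12) a)) e
    a0 a1 a2 (Ne.symm e1) h1.symm h2.symm (Ne.symm e2)
    (fun h => h1.symm (hinj h)) (Ne.symm e3) (Ne.symm e4)
  obtain ⟨t, ht, hc, hz⟩ := pat okB1 (conj_apply u0 hx0 u0) (conj_apply u6 rfl u1) (conj_apply u1 rfl u2)
    (conj_apply u2 h3 u6)
  exact ⟨u, el t.2.1, u0, ev (i := 0) (j := 0) (fixB1 t ht), _, _, hz ▸ wit_of_chk hc⟩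

theorem hasWit0 {p k : ℕ} (hp : p.Prime) {x : G12} (hx0 : (x : P12) 0 = 0) (hx : x ^ p ^ k = 1) (h1 : x ≠ 1)
    (h2 : p = 2 → x * x ≠ 1) : HasWit0 x := by
  have hx' : (x : P12) ^ p ^ k = 1 := congrArg Subtype.val hx
  obtain ⟨a, ha⟩ : ∃ a, (x : P12) ((x : P12) a) ≠ a := by
    by_contra hcon
    push Not at hcon
    have h3 : x * x = 1 := Subtype.ext (Equiv.ext hcon)
    apply h2 _ h3
    obtain ⟨b, hb⟩ : ∃ b, (x : P12) b ≠ b := by
      by_contra hcon2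
      push Not at hcon2
      exact h1 (Subtype.ext (Equiv.ext hcon2))
    exact per2 hp hx' hb (hcon b)
  have ha1 : (x : P12) a ≠ a := fun h => ha (by rw [h, h])
  by_cases h3 : (x : P12) ((x : P12) ((x : P12) a)) = a
  · exact hasWit0_three hx0 ha1 ha h3
  exact hasWit0_four hx0 ha1 ha h3

/-- `M11` in `M12` -/
def inc : Spor.M11 →* Spor.M12 where
  toFun g := ⟨g, g.2.1⟩
  map_one' := rfl
  map_mul' _ _ := rfl

/-- `M11` in `G12` -/
noncomputable def emb : Spor.M11 →* G12 := equiv.toMonoidHom.comp inc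

theorem emb_injective : Function.Injective emb := by
  intro x y h
  have h1 : inc x = inc y := equiv.injective h
  exact Subtype.ext (congrArg (fun z : Spor.M12 => (z : Equiv.Perm GolayPt)) h1)

theorem dp_zero' : dp 0 = (some 0 : GolayPt) := by decide +kernel

theorem coe_equiv (g : Spor.M12) : ((equiv g : G12) : P12) = rho g := rfl

theorem emb_zero (g : Spor.M11) : (emb g : P12) 0 = 0 := by
  apply dp_injective
  show dp (rho (inc g) 0) = dp 0
  rw [dp_rho, dp_zero']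
  exact g.2.2

theorem mem_range {u : G12} (h : (u : P12) 0 = 0) : ∃ g : Spor.M11, emb g = u := by
  obtain ⟨v, rfl⟩ := equiv.surjective u
  have h1 : (v : Equiv.Perm GolayPt) (some 0) = some 0 := by
    rw [← dp_zero', ← dp_rho]
    exact congrArg dp h
  exact ⟨⟨v, v.2, h1⟩, rfl⟩

theorem crow11 [Finite Spor.M11] (hO : pCore 2 Spor.M11 = ⊥) (p : ℕ) [hp : Fact p.Prime] : CRow p Spor.M11 := by
  intro C hC c hc
  by_contra hc1
  obtain ⟨k, hk⟩ := hC.pel c hc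
  have hk' : c ^ p ^ k = 1 := by rw [← hk]; exact pow_orderOf_eq_one c
  obtain ⟨u, g, hu, hg, n, m, w⟩ := hasWit0 hp.out (x := emb c) (k := k) (emb_zero c)
    (by rw [← map_pow, hk', map_one]) (fun h => hc1 (emb_injective (h.trans (map_one _).symm))) (by
    rintro rfl h
    refine hc1 (hC.sq_ne_one hO hc (emb_injective ?_))
    rw [map_mul, map_one, h])
  obtain ⟨u, rfl⟩ := mem_range hu
  obtain ⟨g, rfl⟩ := mem_range hg
  have e : (emb u)⁻¹ * emb c * emb u = emb (u⁻¹ * c * u) := by simp only [map_mul, map_inv]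
  rw [e] at w
  exact false_of_wit hC.toCC (hC.conj_mem' u hc) (w.of_map emb_injective)

theorem crow_m11 {G : Type*} [Group G] [Finite G] [IsSimpleGroup G] (h : Spor.IsoM11 G) (p : ℕ) [Fact p.Prime] :
    CRow p G := by
  obtain ⟨e⟩ := h
  have : Finite Spor.M11 := Finite.of_equiv G e.toEquiv
  have : IsSimpleGroup Spor.M11 := e.symm.isSimpleGroup
  refine CRow.of_equiv e (crow11 (pCore_eq_bot_of_simple ?_ 2) p)
  intro hab
  obtain ⟨x, hx⟩ := mem_range (u := el [1, 4]) (ev (i := 0) (j := 0) (by decide +kernel))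
  obtain ⟨y, hy⟩ := mem_range (u := el [1, 5]) (ev (i := 0) (j := 0) (by decide +kernel))
  have h1 : emb (x * y) = emb (y * x) := congrArg emb (hab.is_comm.comm _ _)
  rw [map_mul, map_mul, hx, hy, ← el_append, ← el_append, el_eq_iff] at h1
  revert h1
  decide +kernel

end Cfsg.Agent.H759.CC
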